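import Mathlib

/-!
# S5175, T8: semilinear coordinates

`V` a group with two additive coordinates `X, Y : V → K`; `A` a group of automorphisms inducing all
`(x, y) ↦ (x + c y, y)`. An automorphism normalizing everything is semilinear.
-/

set_option autoImplicit false

namespace Cfsg.Agent.H476.HM8

variable {V K : Type*} [Group V] [Field K]

/-- two additive coordinates -/
structure Crd (V K : Type*) [Group V] [Field K] where
  X : V → K
  Y : V → K
  hX : ∀ v w, X (v * w) = X v + X w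
  hY : ∀ v w, Y (v * w) = Y v + Y w
  surj : ∀ x y, ∃ v, X v = x ∧ Y v = y

namespace Crd

variable (c : Crd V K)

theorem X_one : c.X 1 = 0 := by
  have := c.hX 1 1
  rw [one_mul] at this
  simpa using this

theorem Y_one : c.Y 1 = 0 := by
  have := c.hY 1 1
  rw [one_mul] at this
  simpa using this

theorem X_inv (v : V) : c.X v⁻¹ = - c.X v := by
  have := c.hX v⁻¹ v
  rw [inv_mul_cancel, c.X_one] at this
  linear_combination -this

theorem Y_inv (v : V) : c.Y v⁻¹ = - c.Y v := by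
  have := c.hY v⁻¹ v
  rw [inv_mul_cancel, c.Y_one] at this
  linear_combination -this

/-- `a` acts as `(x, y) ↦ (x + s y, y)` -/
def IsU (s : K) (a : MulAut V) : Prop := ∀ v, c.X (a v) = c.X v + s * c.Y v ∧ c.Y (a v) = c.Y v

/-- the hypotheses on an automorphism `t` -/
structure Nice (A : Subgroup (MulAut V)) (t : MulAut V) : Prop where
  D : ∀ v, (c.X (t v) = 0 ∧ c.Y (t v) = 0) ↔ (c.X v = 0 ∧ c.Y v = 0)
  Z : ∀ v, c.Y (t v) = 0 ↔ c.Y v = 0
  A : ∀ a ∈ A, t * a * t⁻¹ ∈ A

/-- `t` is semilinear on the two factors -/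
def IsSemi (t : MulAut V) (σ : RingAut K) (α γ : K) : Prop :=
  α ≠ 0 ∧ γ ≠ 0 ∧ (∀ v, c.Y (t v) = γ * σ (c.Y v)) ∧ ∀ v, c.Y v = 0 → c.X (t v) = α * σ (c.X v)

variable {c}

theorem exists_semi [Finite K] {A : Subgroup (MulAut V)} (hA : ∀ a ∈ A, ∃ s, c.IsU s a)
    (hA' : ∀ s, ∃ a ∈ A, c.IsU s a) {t : MulAut V} (ht : c.Nice A t) :
    ∃ (σ : RingAut K) (α γ : K), c.IsSemi t σ α γ := by
  classical
  choose vy hvy using fun y : K => c.surj 0 y
  choose zx hzx using fun x : K => c.surj x 0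
  choose a haA haU using hA'
  have h1 : ∀ s, ∃ τ, c.IsU τ (t * a s * t⁻¹) := fun s => hA _ (ht.A _ (haA s))
  choose τ hτ using h1
  set γf : K → K := fun y => c.Y (t (vy y)) with hγf
  set αf : K → K := fun x => c.X (t (zx x)) with hαf
  have hγ : ∀ v, c.Y (t v) = γf (c.Y v) := by
    intro v
    have h2 : c.Y ((vy (c.Y v))⁻¹ * v) = 0 := by
      rw [c.hY, c.Y_inv, (hvy _).2]; ring
    have h3 := (ht.Z _).2 h2
    rw [map_mul, c.hY, map_inv, c.Y_inv] at h3
    show _ = c.Y (t (vy (c.Y v)))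
    linear_combination h3
  have hα : ∀ v, c.Y v = 0 → c.X (t v) = αf (c.X v) := by
    intro v hv
    have h2 : c.X ((zx (c.X v))⁻¹ * v) = 0 ∧ c.Y ((zx (c.X v))⁻¹ * v) = 0 := by
      constructor
      · rw [c.hX, c.X_inv, (hzx _).1]; ring
      · rw [c.hY, c.Y_inv, (hzx _).2, hv]; ring
    have h3 := ((ht.D _).2 h2).1
    rw [map_mul, c.hX, map_inv, c.X_inv] at h3
    show _ = c.X (t (zx (c.X v)))
    linear_combination h3
  have hγadd : ∀ y y', γf (y + y') = γf y + γf y' := by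
    intro y y'
    have h2 := hγ (vy y * vy y')
    rw [map_mul, c.hY, c.hY, (hvy y).2, (hvy y').2] at h2
    exact h2.symm
  have hαadd : ∀ y y', αf (y + y') = αf y + αf y' := by
    intro y y'
    have h2 := hα (zx y * zx y') (by rw [c.hY, (hzx y).2, (hzx y').2, add_zero])
    rw [map_mul, c.hX, c.hX, (hzx y).1, (hzx y').1] at h2
    exact h2.symm
  have hrel : ∀ s y, αf (s * y) = τ s * γf y := by
    intro s y
    obtain ⟨v, hv1, hv2⟩ := c.surj 0 y
    have h2 : c.X (v⁻¹ * a s v) = s * y ∧ c.Y (v⁻¹ * a s v) = 0 := by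
      constructor
      · rw [c.hX, c.X_inv, (haU s v).1, hv2]; ring
      · rw [c.hY, c.Y_inv, (haU s v).2]; ring
    have h3 := hα _ h2.2
    rw [h2.1] at h3
    rw [← h3, map_mul, map_inv, c.hX, c.X_inv]
    have h4 : t (a s v) = (t * a s * t⁻¹) (t v) := by
      rw [MulAut.mul_apply, MulAut.mul_apply, MulAut.inv_apply_self]
    rw [h4, (hτ s _).1, hγ, hv2]
    ring
  have hα0 : ∀ x, αf x = 0 → x = 0 := by
    intro x hx
    have h2 : c.X (t (zx x)) = 0 ∧ c.Y (t (zx x)) = 0 := ⟨hx, (ht.Z _).2 (hzx x).2⟩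
    have h3 := ((ht.D _).1 h2).1
    rwa [(hzx x).1] at h3
  have hα1 : αf 1 ≠ 0 := fun h => one_ne_zero (hα0 1 h)
  have h11 : αf 1 = τ 1 * γf 1 := by
    have := hrel 1 1
    rwa [mul_one] at this
  have hγ1 : γf 1 ≠ 0 := by
    intro h
    rw [h, mul_zero] at h11
    exact hα1 h11
  have hτ1 : τ 1 ≠ 0 := by
    intro h
    rw [h, zero_mul] at h11
    exact hα1 h11
  have hmul : ∀ x y, αf (x * y) * αf 1 = αf x * αf y := by
    intro x y
    have e1 := hrel x y
    have e2 := hrel x 1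
    have e3 := hrel 1 y
    rw [mul_one] at e2
    rw [one_mul] at e3
    rw [e1, e2, e3, h11]
    ring
  have hαzero : αf 0 = 0 := by
    have := hαadd 0 0
    rw [add_zero] at this
    simpa using this
  let σ₀ : K →+* K :=
    { toFun := fun x => αf x / αf 1
      map_one' := div_self hα1
      map_mul' := fun x y => by
        have := hmul x y
        field_simp
        linear_combination this
      map_zero' := by rw [hαzero, zero_div]
      map_add' := fun x y => by rw [hαadd]; ring }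
  have hbij : Function.Bijective σ₀ := Finite.injective_iff_bijective.1 σ₀.injective
  refine ⟨RingEquiv.ofBijective σ₀ hbij, αf 1, γf 1, hα1, hγ1, fun v => ?_, fun v hv => ?_⟩
  · rw [hγ]
    show γf (c.Y v) = γf 1 * (αf (c.Y v) / αf 1)
    have e3 := hrel 1 (c.Y v)
    rw [one_mul] at e3
    rw [e3, h11]
    field_simp
  · rw [hα v hv]
    show αf (c.X v) = αf 1 * (αf (c.X v) / αf 1)
    field_simp

theorem IsSemi.unique {t : MulAut V} {σ σ' : RingAut K} {α γ α' γ' : K} (h : c.IsSemi t σ α γ)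
    (h' : c.IsSemi t σ' α' γ') : σ = σ' ∧ α = α' ∧ γ = γ' := by
  obtain ⟨hα, hγ, h1, h2⟩ := h
  obtain ⟨hα', hγ', h1', h2'⟩ := h'
  have e : ∀ y, γ * σ y = γ' * σ' y := by
    intro y
    obtain ⟨v, hv1, hv2⟩ := c.surj 0 y
    have a1 := h1 v
    have a2 := h1' v
    rw [hv2] at a1 a2
    rw [← a1, a2]
  have e1 := e 1
  rw [map_one, map_one, mul_one, mul_one] at e1
  have hσ : σ = σ' := by
    apply RingEquiv.ext
    intro y
    have := e y
    rw [e1] at this
    exact mul_left_cancel₀ hγ' this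
  refine ⟨hσ, ?_, e1⟩
  obtain ⟨v, hv1, hv2⟩ := c.surj 1 0
  have a1 := h2 v hv2
  have a2 := h2' v hv2
  rw [hv1, map_one, mul_one] at a1 a2
  rw [← a1, a2]

theorem IsSemi.mul {t t' : MulAut V} {σ σ' : RingAut K} {α γ α' γ' : K} (h : c.IsSemi t σ α γ)
    (h' : c.IsSemi t' σ' α' γ') : c.IsSemi (t * t') (σ * σ') (α * σ α') (γ * σ γ') := by
  obtain ⟨hα, hγ, h1, h2⟩ := h
  obtain ⟨hα', hγ', h1', h2'⟩ := h'
  refine ⟨mul_ne_zero hα (by simpa using hα'), mul_ne_zero hγ (by simpa using hγ'), fun v => ?_,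
    fun v hv => ?_⟩
  · rw [MulAut.mul_apply, h1, h1', map_mul]
    show _ = γ * σ γ' * σ (σ' (c.Y v))
    ring
  · rw [MulAut.mul_apply, h2 (t' v) (by rw [h1', hv, map_zero, mul_zero]), h2' v hv, map_mul]
    show _ = α * σ α' * σ (σ' (c.X v))
    ring

/-- the field automorphism, as a homomorphism -/
theorem exists_hom [Finite K] {A : Subgroup (MulAut V)} (hA : ∀ a ∈ A, ∃ s, c.IsU s a)
    (hA' : ∀ s, ∃ a ∈ A, c.IsU s a) {T : Type*} [Group T] (i : T →* MulAut V)
    (ht : ∀ t : T, c.Nice A (i t)) :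
    ∃ f : T →* RingAut K, ∀ t : T, ∃ α γ, c.IsSemi (i t) (f t) α γ := by
  choose σ α γ h using fun t : T => exists_semi hA hA' (ht t)
  refine ⟨MonoidHom.mk' σ (fun a b => ?_), fun t => ⟨α t, γ t, h t⟩⟩
  have h1 := (h a).mul (h b)
  rw [← map_mul] at h1
  exact ((h (a * b)).unique h1).1

theorem IsSemi.pow {t : MulAut V} {α γ : K} (h : c.IsSemi t 1 α γ) (n : ℕ) :
    c.IsSemi (t ^ n) 1 (α ^ n) (γ ^ n) := by
  induction n with
  | zero =>
    refine ⟨by simp, by simp, fun v => ?_, fun v _ => ?_⟩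
    · show c.Y v = _
      simp
    · show c.X v = _
      simp
  | succ n ih =>
    have := ih.mul h
    rw [pow_succ, pow_succ, pow_succ]
    simpa using this

theorem isSemi_one : c.IsSemi (1 : MulAut V) 1 1 1 :=
  ⟨one_ne_zero, one_ne_zero, fun v => by simp, fun v _ => by simp⟩

/-- linear elements of 2-power order are unipotent -/
theorem IsSemi.unip [CharP K 2] {t : MulAut V} {α γ : K} (h : c.IsSemi t 1 α γ) (k : ℕ)
    (hk : t ^ 2 ^ k = 1) : α = 1 ∧ γ = 1 := by
  have h1 := h.pow (2 ^ k)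
  rw [hk] at h1
  obtain ⟨-, h2, h3⟩ := h1.unique isSemi_one
  have key : ∀ x : K, x ^ 2 ^ k = 1 → x = 1 := by
    intro x hx
    have h4 : (x - 1) ^ 2 ^ k = 0 := by
      rw [sub_pow_char_pow, hx, one_pow, sub_self]
    exact sub_eq_zero.1 ((pow_eq_zero_iff (by positivity)).1 h4)
  exact ⟨key _ h2, key _ h3⟩

/-- an element with trivial field automorphism centralizes ... : the converse -/
theorem IsSemi.eq_one_of_comm {A : Subgroup (MulAut V)} (hA' : ∀ s, ∃ a ∈ A, c.IsU s a)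
    {t : MulAut V} {σ : RingAut K} {α γ : K}
    (h : c.IsSemi t σ α γ) (ht : ∀ a ∈ A, t * a = a * t) : σ = 1 := by
  obtain ⟨hα, hγ, h1, h2⟩ := h
  have key : ∀ s, α * σ s = s * γ := by
    intro s
    obtain ⟨a, ha, hU⟩ := hA' s
    obtain ⟨v, hv1, hv2⟩ := c.surj 0 1
    have e1 : c.X (v⁻¹ * a v) = s ∧ c.Y (v⁻¹ * a v) = 0 := by
      constructor
      · rw [c.hX, c.X_inv, (hU v).1, hv2]; ring
      · rw [c.hY, c.Y_inv, (hU v).2]; ring
    have e2 := h2 _ e1.2
    rw [e1.1] at e2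
    rw [← e2, map_mul, map_inv, c.hX, c.X_inv]
    have e3 : t (a v) = a (t v) := by
      have := congrArg (fun f : MulAut V => f v) (ht a ha)
      exact this
    rw [e3, (hU _).1, h1, hv2, map_one]
    ring
  have h3 := key 1
  rw [map_one, mul_one, one_mul] at h3
  apply RingEquiv.ext
  intro s
  have h4 := key s
  rw [← h3, mul_comm s α] at h4
  exact mul_left_cancel₀ hα h4

/-- a unipotent element normalizing `SL₂(K)` acts as an element of the root group -/
theorem exists_isU {t e : MulAut V} {m00 m01 : K}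
    (h1 : ∀ v, c.Y (t v) = c.Y v) (h2 : ∀ v, c.Y v = 0 → c.X (t v) = c.X v)
    (he : ∀ v, c.X (e v) = c.X v ∧ c.Y (e v) = c.Y v + c.X v)
    (hm : ∀ v, c.X ((t * e * t⁻¹) v) = m00 * c.X v + m01 * c.Y v) : ∃ s, c.IsU s t := by
  classical
  choose vy hvy using fun y : K => c.surj 0 y
  set β : K → K := fun y => c.X (t (vy y)) with hβ
  have hb : ∀ v, c.X (t v) = c.X v + β (c.Y v) := by
    intro v
    have e1 : c.Y ((vy (c.Y v))⁻¹ * v) = 0 := by
      rw [c.hY, c.Y_inv, (hvy _).2]; ring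
    have e2 := h2 _ e1
    rw [map_mul, map_inv, c.hX, c.X_inv, c.hX, c.X_inv, (hvy _).1] at e2
    show _ = c.X v + c.X (t (vy (c.Y v)))
    linear_combination e2
  have key : ∀ x, x + β x = m00 * x := by
    intro x
    obtain ⟨v, hv1, hv2⟩ := c.surj x 0
    have e1 : t v = v * (v⁻¹ * t v) := by group
    -- `w = t⁻¹ v`
    have hw : t (t⁻¹ v) = v := MulAut.apply_inv_self _ _ _
    have hwY : c.Y (t⁻¹ v) = 0 := by
      have := h1 (t⁻¹ v)
      rw [hw, hv2] at this
      exact this.symm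
    have hwX : c.X (t⁻¹ v) = x := by
      have := h2 _ hwY
      rw [hw, hv1] at this
      exact this.symm
    have h3 := hm v
    rw [MulAut.mul_apply, MulAut.mul_apply, hb, (he _).1, (he _).2, hwY, hwX, hv1, hv2, zero_add,
      mul_zero, add_zero] at h3
    exact h3
  refine ⟨β 1, fun v => ⟨?_, h1 v⟩⟩
  rw [hb]
  have k1 := key 1
  have k2 := key (c.Y v)
  rw [mul_one] at k1
  rw [← k1] at k2
  linear_combination k2

end Crd

end Cfsg.Agent.H476.HM8
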